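import Cfsg.Agent.H616.L34.Iso
import Cfsg.Agent.H592.L34.Nine
import Cfsg.Agent.H482.LF.SimpB
import Cfsg.Agent.H356.L34.LamDims
import Cfsg.Agent.H288.L34.LamGen

/-!
# S5917, row M9 (helper616): an abelian submodule of type 9
-/

set_option autoImplicit false
set_option linter.unusedSectionVars false

namespace Cfsg.Agent.H616.L34

open Matrix Cfsg.Agent.H691.L34 Cfsg.Agent.H288.L34 Module Cfsg.Agent.H592.L34

/-- numbers -/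
theorem num3 {a b c d n5 n7 a1 b1 c1 f1 a2 b2 c2 f2 x x3 x5 x7 w v3 v5 v7 : ℕ} (hn5 : n5 = 68 ∨ n5 = 48)
    (hn7 : n7 = 80 ∨ n7 = 38)
    (y0 : x = a + 16 * b + 9 * c + 64 * d) (y3 : x3 = a + 4 * b + 3 * c + 22 * d)
    (y5 : x5 = a + 4 * b + c + 12 * d) (y7 : x7 = a + 4 * b + 10 * d)
    (hw : w + x = 248) (p0 : w = x + (a1 + 16 * b1 + 9 * c1 + 64 * f1)) (p3 : v3 = x3 + (a1 + 4 * b1 + 3 * c1 + 22 * f1))
    (p5 : v5 = x5 + (a1 + 4 * b1 + c1 + 12 * f1)) (p7 : v7 = x7 + (a1 + 4 * b1 + 10 * f1))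
    (q0 : 248 = w + (a2 + 16 * b2 + 9 * c2 + 64 * f2)) (q3 : 86 = v3 + (a2 + 4 * b2 + 3 * c2 + 22 * f2))
    (q5 : n5 = v5 + (a2 + 4 * b2 + c2 + 12 * f2)) (q7 : n7 = v7 + (a2 + 4 * b2 + 10 * f2)) :
    a + a2 ≤ 4 ∧ b + b2 ≤ 1 ∧ c + c2 ≤ 4 ∧ d + f2 ≤ 3 ∧ x = a2 + 16 * b2 + 9 * c2 + 64 * f2 := by
  have e8 : x = a2 + 16 * b2 + 9 * c2 + 64 * f2 := by clear hn5 hn7 y0 y3 y5 y7 p0 p3 p5 p7 q3 q5 q7; omega
  have e9 : a + a1 + a2 = 4 ∧ b + b1 + b2 = 1 ∧ c + c1 + c2 = 4 ∧ d + f1 + f2 = 3 := by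
    obtain ⟨A, hA⟩ : ∃ A, A = a + a1 + a2 := ⟨_, rfl⟩
    obtain ⟨B, hB⟩ : ∃ B, B = b + b1 + b2 := ⟨_, rfl⟩
    obtain ⟨C, hC⟩ : ∃ C, C = c + c1 + c2 := ⟨_, rfl⟩
    obtain ⟨D, hD⟩ : ∃ D, D = d + f1 + f2 := ⟨_, rfl⟩
    have e0 : 248 = A + 16 * B + 9 * C + 64 * D := by
      rw [hA, hB, hC, hD, q0, p0, y0]; ring
    have e3 : 86 = A + 4 * B + 3 * C + 22 * D := by
      rw [hA, hB, hC, hD, q3, p3, y3]; ring
    have e5 : n5 = A + 4 * B + C + 12 * D := by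
      rw [hA, hB, hC, hD, q5, p5, y5]; ring
    have e7 : n7 = A + 4 * B + 10 * D := by
      rw [hA, hB, hD, q7, p7, y7]; ring
    rw [← hA, ← hB, ← hC, ← hD]
    clear hA hB hC hD p0 p3 p5 p7 q0 q3 q5 q7 e8 hw y0 y3 y5 y7
    rcases hn5 with rfl | rfl <;> rcases hn7 with rfl | rfl <;> omega
  obtain ⟨z1, z2, z3, z4⟩ := e9
  refine ⟨?_, ?_, ?_, ?_, e8⟩
  · rw [← z1]; exact Nat.add_le_add_right (Nat.le_add_right _ _) _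
  · rw [← z2]; exact Nat.add_le_add_right (Nat.le_add_right _ _) _
  · rw [← z3]; exact Nat.add_le_add_right (Nat.le_add_right _ _) _
  · rw [← z4]; exact Nat.add_le_add_right (Nat.le_add_right _ _) _

theorem num4 {a b' c d a2 b2 c2 d2 : ℕ} (r0 : 36 = a + 16 * b' + 9 * c + 64 * d) (t3 : 12 = a + 4 * b' + 3 * c + 22 * d)
    (t5 : 8 = a + 4 * b' + c + 12 * d) (t7 : 6 = a + 4 * b' + 10 * d) (s1 : a + a2 ≤ 4) (s2 : b' + b2 ≤ 1)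
    (s3 : c + c2 ≤ 4) (s4 : d + d2 ≤ 3) (s5 : 36 = a2 + 16 * b2 + 9 * c2 + 64 * d2) : False := by
  have u1 : d = 0 := by clear t3 t5 t7 s1 s2 s3 s4 s5; omega
  subst u1
  have u2 : c = 2 ∧ b' = 1 ∧ a = 2 := by clear s1 s2 s3 s4 s5; omega
  obtain ⟨rfl, rfl, rfl⟩ := u2
  clear r0 t3 t5 t7
  omega

variable {F : Type} [Field F] [Fintype F] {V : Type} [AddCommGroup V] [Module (ZMod 2) V] [Module.Finite (ZMod 2) V]
  {ρ : Representation (ZMod 2) (G3 F) V}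

/-- the multiplicities of a totally isotropic invariant subspace -/
theorem iso_counts (hF : Fintype.card F = 4) (hc : CT ρ) {n5 n7 : ℕ} (hn5 : n5 = 68 ∨ n5 = 48)
    (hn7 : n7 = 80 ∨ n7 = 38) (hd : Dims ρ (⊤ : Submodule (ZMod 2) V) 248 86 n5 n7)
    (B : LinearMap.BilinForm (ZMod 2) V) (hB : B.Nondegenerate)
    (hi : ∀ g x y, B (ρ g x) (ρ g y) = B x y) {X : Submodule (ZMod 2) V} (hX : Inv ρ X) (hle : X ≤ B.orthogonal X) :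
    ∃ a b c d a2 b2 c2 d2 : ℕ, finrank (ZMod 2) X = a + 16 * b + 9 * c + 64 * d ∧
      (∀ g : G3 F, orderOf g = 3 → g ∉ Subgroup.center (G3 F) → finrank (ZMod 2) (fx ρ g X) =
        a + 4 * b + 3 * c + 22 * d) ∧
      (∀ g : G3 F, orderOf g = 5 → finrank (ZMod 2) (fx ρ g X) = a + 4 * b + c + 12 * d) ∧
      (∀ g : G3 F, orderOf g = 7 → finrank (ZMod 2) (fx ρ g X) = a + 4 * b + 10 * d) ∧
      a + a2 ≤ 4 ∧ b + b2 ≤ 1 ∧ c + c2 ≤ 4 ∧ d + d2 ≤ 3 ∧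
      finrank (ZMod 2) X = a2 + 16 * b2 + 9 * c2 + 64 * d2 := by
  obtain ⟨g3, hg3, hg3c⟩ := exists_three (F := F) hF
  obtain ⟨g5, hg5⟩ := exists_order (F := F) hF (p := 5) (by norm_num) (by norm_num)
  obtain ⟨g7, hg7⟩ := exists_order (F := F) hF (p := 7) (by norm_num) (by norm_num)
  obtain ⟨d0, d3, d5, d7⟩ := hd
  have ho : Inv ρ (B.orthogonal X) := inv_orth hi hX
  obtain ⟨a, b, c, d, r0, r3, r5, r7⟩ := H482.LF.PL hF hc inv_bot hX (bot_le : ⊥ ≤ X)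
  obtain ⟨a1, b1, c1, f1, p0, p3, p5, p7⟩ := H482.LF.PL hF hc hX ho hle
  obtain ⟨a2, b2, c2, f2, q0, q3, q5, q7⟩ := H482.LF.PL hF hc ho inv_top le_top
  have hdim := LinearMap.BilinForm.finrank_orthogonal hB X
  have hV : finrank (ZMod 2) (⊤ : Submodule (ZMod 2) V) = finrank (ZMod 2) V := finrank_top _ _
  have hle' := Submodule.finrank_le X
  rw [d0] at hV q0
  rw [← hV] at hdim hle'
  have k3 := q3 g3 hg3 hg3c
  have k5 := q5 g5 hg5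
  have k7 := q7 g7 hg7
  rw [d3 g3 hg3 hg3c] at k3
  rw [d5 g5 hg5] at k5
  rw [d7 g7 hg7] at k7
  rw [finrank_bot, zero_add] at r0
  have s3 := r3 g3 hg3 hg3c
  have s5 := r5 g5 hg5
  have s7 := r7 g7 hg7
  rw [fx_bot, zero_add] at s3 s5 s7
  have h := num3 hn5 hn7 r0 s3 s5 s7 (by rw [hdim]; exact Nat.sub_add_cancel hle') p0 (p3 g3 hg3 hg3c) (p5 g5 hg5) (p7 g7 hg7) q0 k3 k5 k7
  refine ⟨a, b, c, d, a2, b2, c2, f2, r0, fun g hg hgc => ?_, fun g hg => ?_, fun g hg => ?_, h.1, h.2.1, h.2.2.1,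
    h.2.2.2.1, h.2.2.2.2⟩
  · have := r3 g hg hgc
    rwa [fx_bot, zero_add] at this
  · have := r5 g hg
    rwa [fx_bot, zero_add] at this
  · have := r7 g hg
    rwa [fx_bot, zero_add] at this

/-- the exterior square of a submodule of type 9 is not embedded by the bracket -/
theorem bsp_lt (hF : Fintype.card F = 4) (hc : CT ρ) {n5 n7 : ℕ} (hn5 : n5 = 68 ∨ n5 = 48)
    (hn7 : n7 = 80 ∨ n7 = 38) (hd : Dims ρ (⊤ : Submodule (ZMod 2) V) 248 86 n5 n7)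
    (B : LinearMap.BilinForm (ZMod 2) V) (hB : B.Nondegenerate)
    (hi : ∀ g x y, B (ρ g x) (ρ g y) = B x y) {β : V →ₗ[ZMod 2] V →ₗ[ZMod 2] V} (hβ : Brk ρ β) {b : Bool}
    {W : Submodule (ZMod 2) V} (hW : IsNine ρ b W) : finrank (ZMod 2) (bsp β W) < 36 := by
  by_contra hcon
  rw [not_lt] at hcon
  obtain ⟨g3, hg3, hg3c⟩ := exists_three (F := F) hF
  obtain ⟨g5, hg5⟩ := exists_order (F := F) hF (p := 5) (by norm_num) (by norm_num)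
  obtain ⟨g7, hg7⟩ := exists_order (F := F) hF (p := 7) (by norm_num) (by norm_num)
  obtain ⟨e0, e3, e5, e7⟩ := H356.L34.lam_dims hF hβ hW hcon
  obtain ⟨a, b', c, d, a2, b2, c2, d2, r0, r3, r5, r7, s1, s2, s3, s4, s5⟩ :=
    iso_counts hF hc hn5 hn7 hd B hB hi (H356.L34.lam_inv hF hβ hW) (bsp_iso hF hβ B hi hW)
  have t3 := r3 g3 hg3 hg3c
  have t5 := r5 g5 hg5
  have t7 := r7 g7 hg7
  rw [e3 g3 hg3 hg3c] at t3
  rw [e5 g5 hg5] at t5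
  rw [e7 g7 hg7] at t7
  rw [e0] at r0 s5
  exact num4 r0 t3 t5 t7 s1 s2 s3 s4 s5

/-- **M9** -/
theorem exists_abelian (hF : Fintype.card F = 4) (hc : CT ρ) {n5 n7 : ℕ} (hn5 : n5 = 68 ∨ n5 = 48)
    (hn7 : n7 = 80 ∨ n7 = 38) (hd : Dims ρ (⊤ : Submodule (ZMod 2) V) 248 86 n5 n7)
    (B : LinearMap.BilinForm (ZMod 2) V) (hB : B.Nondegenerate) (hs : ∀ x y, B x y = B y x)
    (hi : ∀ g x y, B (ρ g x) (ρ g y) = B x y) (h0 : fixAll ρ = ⊥) {β : V →ₗ[ZMod 2] V →ₗ[ZMod 2] V} (hβ : Brk ρ β)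
    (hfix : ∀ (b : Bool) (φ : M3 F → V), (∀ X Y, HF X → HF Y → φ (X + Y) = φ X + φ Y) → (∀ X, HF X → φ X = 0 → X = 0) →
      (∀ (g : G3 F) X, HF X → ρ g (φ X) = φ (hact (tw b g) X)) →
      (∀ g : G3 F, hact g (1 : M3 F) = 1 → ρ g (β (φ d1) (φ d2)) = β (φ d1) (φ d2)) → β (φ d1) (φ d2) = 0) :
    ∃ b W, IsNine ρ b W ∧ ∀ x ∈ W, ∀ y ∈ W, β x y = 0 := by
  obtain ⟨b, W, hW⟩ := exists_nine (H482.LF.simpCases hF) (H482.LF.nineDims hF) hF hc hn5 hn7 hd B hB hs hi h0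
  refine ⟨b, W, hW, ?_⟩
  have hlt := bsp_lt hF hc hn5 hn7 hd B hB hi hβ hW
  obtain ⟨φ, h1, h2, h3, h4⟩ := hW
  refine lam_gen hF hβ h1 h3 h4 (hfix b φ h1 h2 h4 ?_)
  intro g hg
  exact lam_fix hF hβ h0 h1 h3 h4 hlt g hg

end Cfsg.Agent.H616.L34
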