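import Cfsg.Agent.H616.L34.Quad3
import Cfsg.Agent.H288.L34.BrkDef
import Cfsg.Agent.H592.L34.ExistsNine

/-!
# S5917, row M9 (helper616): the space of brackets of a submodule of type 9 is totally isotropic
-/

set_option autoImplicit false
set_option linter.unusedSectionVars false

namespace Cfsg.Agent.H616.L34

open Matrix Cfsg.Agent.H691.L34 Cfsg.Agent.H204.L34 Cfsg.Agent.H288.L34 Module

section

variable {F : Type} [Field F]

theorem it_it (g : G3 F) : it (it g) = g := by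
  apply Subtype.ext
  show ((it g)⁻¹ : G3 F).1.transpose = g.1
  rw [← map_inv]
  show (((g⁻¹)⁻¹ : G3 F).1.transpose).transpose = g.1
  rw [inv_inv, Matrix.transpose_transpose]

theorem tw_tw (b : Bool) (g : G3 F) : tw b (tw b g) = g := by
  cases b
  · rfl
  · exact it_it g

theorem four_of [Fintype F] (hF : Fintype.card F = 4) : Four F := by
  refine ⟨?_, fun x => ?_⟩
  · have h : ((Fintype.card F : ℕ) : F) = 0 := FiniteField.cast_card_eq_zero F
    rw [hF] at h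
    have h' : (2 : F) * 2 = 0 := by
      have e : (2 : F) * 2 = ((4 : ℕ) : F) := by push_cast; ring
      rw [e]; exact h
    exact mul_self_eq_zero.1 h'
  · have h := FiniteField.pow_card x
    rwa [hF] at h

theorem exists_w [Fintype F] (hF : Fintype.card F = 4) : ∃ w : F, w ^ 2 + w + 1 = 0 := by
  classical
  have := four_of hF
  have h2 : (2 : F) = 0 := two'
  have h : ∃ w : F, w ≠ 0 ∧ w ≠ 1 := by
    by_contra hcon
    push Not at hcon
    have h1 : (Finset.univ : Finset F) ⊆ {0, 1} := fun x _ => by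
      by_cases hx : x = 0
      · simp [hx]
      · simp [hcon x hx]
    have h3 := Finset.card_le_card h1
    rw [Finset.card_univ, hF] at h3
    have h4 : ({0, 1} : Finset F).card ≤ 2 := Finset.card_le_two
    omega
  obtain ⟨w, h0, h1⟩ := h
  refine ⟨w, ?_⟩
  have h4 := four' w
  have e : w * ((w - 1) * (w ^ 2 + w + 1)) = 0 := by linear_combination h4
  rcases mul_eq_zero.1 e with h | h
  · exact absurd h h0
  rcases mul_eq_zero.1 h with h | h
  · exact absurd (by linear_combination h) h1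
  · exact h

end

section

variable {F : Type} [Field F] {V : Type} [AddCommGroup V] [Module (ZMod 2) V]
  {ρ : Representation (ZMod 2) (G3 F) V}

/-- the fourlinear form of a module of type 9 -/
def f4 [Four F] (β : V →ₗ[ZMod 2] V →ₗ[ZMod 2] V) (B : LinearMap.BilinForm (ZMod 2) V) (ψ : HS F →+ V) :
    HS F →+ HS F →+ HS F →+ HS F →+ ZMod 2 :=
  AddMonoidHom.mk' (fun x => AddMonoidHom.mk' (fun y => AddMonoidHom.mk' (fun z => AddMonoidHom.mk' (fun t =>
    B (β (ψ x) (ψ y)) (β (ψ z) (ψ t))) (by intro a b; simp only [map_add]))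
    (by intro a b; ext t; simp only [AddMonoidHom.mk'_apply, AddMonoidHom.add_apply, map_add, LinearMap.add_apply]))
    (by intro a b; ext z t; simp only [AddMonoidHom.mk'_apply, AddMonoidHom.add_apply, map_add, LinearMap.add_apply]))
    (by intro a b; ext y z t; simp only [AddMonoidHom.mk'_apply, AddMonoidHom.add_apply, map_add, LinearMap.add_apply])

theorem f4_apply [Four F] (β : V →ₗ[ZMod 2] V →ₗ[ZMod 2] V) (B : LinearMap.BilinForm (ZMod 2) V) (ψ : HS F →+ V)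
    (x y z t : HS F) : f4 β B ψ x y z t = B (β (ψ x) (ψ y)) (β (ψ z) (ψ t)) := rfl

theorem iso_four [Fintype F] (hF : Fintype.card F = 4) {β : V →ₗ[ZMod 2] V →ₗ[ZMod 2] V} (hβ : Brk ρ β)
    (B : LinearMap.BilinForm (ZMod 2) V) (hi : ∀ g x y, B (ρ g x) (ρ g y) = B x y) {b : Bool}
    {W : Submodule (ZMod 2) V} (hW : IsNine ρ b W) {x y z t : V} (hx : x ∈ W) (hy : y ∈ W) (hz : z ∈ W) (ht : t ∈ W) :
    B (β x y) (β z t) = 0 := by
  have := four_of hF
  obtain ⟨w, hw⟩ := exists_w hF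
  obtain ⟨φ, h1, h2, h3, h4⟩ := hW
  let ψ : HS F →+ V := AddMonoidHom.mk' (fun X => φ X.1) (fun X Y => h1 X.1 Y.1 X.2 Y.2)
  have hψ : ∀ X : HS F, ψ X = φ X.1 := fun X => rfl
  have hg : ∀ (g : G3 F) (X : HS F), ψ (ac g X) = ρ (tw b g) (ψ X) := fun g X => by
    rw [hψ, hψ, h4 _ _ X.2, tw_tw]; rfl
  have hq : Qf (f4 β B ψ) := by
    refine ⟨fun g x y z t => ?_, fun x z t => ?_, fun x y z => ?_⟩
    · rw [f4_apply, f4_apply, hg, hg, hg, hg, ← hβ.inv, ← hβ.inv, hi]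
    · rw [f4_apply, hβ.alt, map_zero, LinearMap.zero_apply]
    · rw [f4_apply, hβ.alt, map_zero]
  have hm : ∀ v ∈ W, ∃ X : HS F, ψ X = v := fun v hv => by
    obtain ⟨X, hX, h⟩ := (h3 v).1 hv
    exact ⟨⟨X, hX⟩, h⟩
  obtain ⟨X, rfl⟩ := hm x hx
  obtain ⟨Y, rfl⟩ := hm y hy
  obtain ⟨Z, rfl⟩ := hm z hz
  obtain ⟨T, rfl⟩ := hm t ht
  exact form_zero w hw hq X Y Z T

/-- the space of brackets is totally isotropic -/
theorem bsp_iso [Fintype F] (hF : Fintype.card F = 4) {β : V →ₗ[ZMod 2] V →ₗ[ZMod 2] V} (hβ : Brk ρ β)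
    (B : LinearMap.BilinForm (ZMod 2) V) (hi : ∀ g x y, B (ρ g x) (ρ g y) = B x y) {b : Bool}
    {W : Submodule (ZMod 2) V} (hW : IsNine ρ b W) : bsp β W ≤ B.orthogonal (bsp β W) := by
  have h1 : ∀ z ∈ W, ∀ t ∈ W, ∀ n ∈ bsp β W, B n (β z t) = 0 := by
    intro z hz t ht n hn
    refine Submodule.span_induction (p := fun n _ => B n (β z t) = 0) ?_ ?_ ?_ ?_ hn
    · rintro n ⟨x, hx, y, hy, rfl⟩
      exact iso_four hF hβ B hi hW hx hy hz ht
    · rw [map_zero, LinearMap.zero_apply]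
    · intro a c _ _ ha hc
      rw [map_add, LinearMap.add_apply, ha, hc, add_zero]
    · intro r a _ ha
      rw [map_smul, LinearMap.smul_apply, ha, smul_zero]
  refine Submodule.span_le.2 ?_
  rintro v ⟨z, hz, t, ht, rfl⟩
  show β z t ∈ B.orthogonal (bsp β W)
  rw [LinearMap.BilinForm.mem_orthogonal_iff]
  exact fun n hn => h1 z hz t ht n hn

end

/-- numbers -/
theorem num2 {a b c d n5 n7 a1 b1 c1 f1 a2 b2 c2 f2 w v3 v5 v7 : ℕ} (hn5 : n5 = 68 ∨ n5 = 48) (hn7 : n7 = 80 ∨ n7 = 38)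
    (x0 : 36 = a + 16 * b + 9 * c + 64 * d) (x3 : 12 = a + 4 * b + 3 * c + 22 * d)
    (x5 : 8 = a + 4 * b + c + 12 * d) (x7 : 6 = a + 4 * b + 10 * d)
    (hw : w + 36 = 248) (p0 : w = 36 + (a1 + 16 * b1 + 9 * c1 + 64 * f1)) (p3 : v3 = 12 + (a1 + 4 * b1 + 3 * c1 + 22 * f1))
    (p5 : v5 = 8 + (a1 + 4 * b1 + c1 + 12 * f1)) (p7 : v7 = 6 + (a1 + 4 * b1 + 10 * f1))
    (q0 : 248 = w + (a2 + 16 * b2 + 9 * c2 + 64 * f2)) (q3 : 86 = v3 + (a2 + 4 * b2 + 3 * c2 + 22 * f2))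
    (q5 : n5 = v5 + (a2 + 4 * b2 + c2 + 12 * f2)) (q7 : n7 = v7 + (a2 + 4 * b2 + 10 * f2)) : False := by
  have hd : d = 0 := by omega
  subst hd
  have hc : c = 2 ∧ b = 1 ∧ a = 2 := by omega
  clear x0 x3 x5 x7
  have e0 : 212 = (a1 + a2) + 16 * (b1 + b2) + 9 * (c1 + c2) + 64 * (f1 + f2) := by omega
  have e3 : 74 = (a1 + a2) + 4 * (b1 + b2) + 3 * (c1 + c2) + 22 * (f1 + f2) := by omega
  have e5 : n5 = 8 + (a1 + a2) + 4 * (b1 + b2) + (c1 + c2) + 12 * (f1 + f2) := by omega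
  have e7 : n7 = 6 + (a1 + a2) + 4 * (b1 + b2) + 10 * (f1 + f2) := by omega
  have e8 : 36 = a2 + 16 * b2 + 9 * c2 + 64 * f2 := by omega
  have e9 : a1 + a2 = 2 ∧ b1 + b2 = 0 ∧ c1 + c2 = 2 := by
    generalize a1 + a2 = a at e0 e3 e5 e7 ⊢
    generalize b1 + b2 = b at e0 e3 e5 e7 ⊢
    generalize c1 + c2 = c at e0 e3 e5 e7 ⊢
    generalize f1 + f2 = f at e0 e3 e5 e7
    clear p0 p3 p5 p7 q0 q3 q5 q7 e8 hw hc
    rcases hn5 with rfl | rfl <;> rcases hn7 with rfl | rfl <;> omega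
  omega

end Cfsg.Agent.H616.L34
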