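import Cfsg.Agent.H204.L34.Rank

/-!
# S5917, row M9 (helper616): every `SL₃(4)`-invariant bilinear form on the exterior square of the module of hermitian
matrices vanishes
-/

set_option autoImplicit false
set_option linter.unusedSectionVars false

namespace Cfsg.Agent.H616.L34

open Matrix Cfsg.Agent.H691.L34 Cfsg.Agent.H204.L34

/-- fields with at most four elements of characteristic two -/
class Four (F : Type) [Field F] : Prop where
  two : (2 : F) = 0
  four : ∀ x : F, x ^ 4 = x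

section

variable {F : Type} [Field F] [Four F]

theorem two' : (2 : F) = 0 := Four.two
theorem four' (x : F) : x ^ 4 = x := Four.four x

theorem add_self (x : F) : x + x = 0 := by
  have h := two' (F := F)
  linear_combination x * h

theorem neg_eq (x : F) : -x = x := by
  have h := two' (F := F)
  linear_combination (-x) * h

theorem sq_add (x y : F) : (x + y) ^ 2 = x ^ 2 + y ^ 2 := by
  have h := two' (F := F)
  linear_combination (x * y) * h

theorem sq_sq (x : F) : (x ^ 2) ^ 2 = x := by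
  rw [← pow_mul]; exact four' x

theorem tq (s : F) : (s + s ^ 2) ^ 2 = s + s ^ 2 := by
  rw [sq_add, sq_sq, add_comm]

variable (F) in
/-- the additive group of hermitian matrices -/
def HS : AddSubgroup (M3 F) where
  carrier := {X | HF X}
  zero_mem' := by
    ext i j
    simp [ct]
  add_mem' := by
    intro X Y hX hY
    ext i j
    show ((X + Y) j i) ^ 2 = (X + Y) i j
    rw [Matrix.add_apply, Matrix.add_apply, sq_add, HF_apply hX, HF_apply hY]
  neg_mem' := by
    intro X hX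
    ext i j
    show ((-X) j i) ^ 2 = (-X) i j
    rw [Matrix.neg_apply, Matrix.neg_apply, neg_eq, neg_eq, HF_apply hX]

/-- the action on hermitian matrices -/
def ac (g : G3 F) : HS F →+ HS F := AddMonoidHom.mk' (fun X => ⟨hact g X.1, hact_HF two' four' X.2 g⟩) (by
  intro X Y
  apply Subtype.ext
  show hact g (X.1 + Y.1) = hact g X.1 + hact g Y.1
  rw [hact, hact, hact, Matrix.mul_add, Matrix.add_mul])

theorem ac_val (g : G3 F) (X : HS F) : (ac g X).1 = hact g X.1 := rfl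

theorem ac_mul (g h : G3 F) (X : HS F) : ac g (ac h X) = ac (g * h) X :=
  Subtype.ext (hact_mul two' g h X.1).symm

theorem ac_one (X : HS F) : ac (1 : G3 F) X = X := Subtype.ext (hact_one X.1)

theorem ac_inv (g : G3 F) (X : HS F) : ac g (ac g⁻¹ X) = X := by
  rw [ac_mul, mul_inv_cancel, ac_one]

def O12 : F →+ HS F := AddMonoidHom.mk' (fun y => ⟨!![0, y, 0; y ^ 2, 0, 0; 0, 0, 0], by
    ext i j; fin_cases i <;> fin_cases j <;> simp [ct, sq_sq]⟩) (by
  intro x y
  apply Subtype.ext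
  ext i j; fin_cases i <;> fin_cases j <;> simp [sq_add])

def O13 : F →+ HS F := AddMonoidHom.mk' (fun y => ⟨!![0, 0, y; 0, 0, 0; y ^ 2, 0, 0], by
    ext i j; fin_cases i <;> fin_cases j <;> simp [ct, sq_sq]⟩) (by
  intro x y
  apply Subtype.ext
  ext i j; fin_cases i <;> fin_cases j <;> simp [sq_add])

def O23 : F →+ HS F := AddMonoidHom.mk' (fun y => ⟨!![0, 0, 0; 0, 0, y; 0, y ^ 2, 0], by
    ext i j; fin_cases i <;> fin_cases j <;> simp [ct, sq_sq]⟩) (by
  intro x y
  apply Subtype.ext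
  ext i j; fin_cases i <;> fin_cases j <;> simp [sq_add])

def T1 : F →+ HS F := AddMonoidHom.mk' (fun s => ⟨!![s + s ^ 2, 0, 0; 0, 0, 0; 0, 0, 0], by
    ext i j; fin_cases i <;> fin_cases j <;> simp [ct, tq]⟩) (by
  intro x y
  apply Subtype.ext
  ext i j; fin_cases i <;> fin_cases j <;> simp [sq_add] <;> ring)

def T2 : F →+ HS F := AddMonoidHom.mk' (fun s => ⟨!![0, 0, 0; 0, s + s ^ 2, 0; 0, 0, 0], by
    ext i j; fin_cases i <;> fin_cases j <;> simp [ct, tq]⟩) (by
  intro x y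
  apply Subtype.ext
  ext i j; fin_cases i <;> fin_cases j <;> simp [sq_add] <;> ring)

def T3 : F →+ HS F := AddMonoidHom.mk' (fun s => ⟨!![0, 0, 0; 0, 0, 0; 0, 0, s + s ^ 2], by
    ext i j; fin_cases i <;> fin_cases j <;> simp [ct, tq]⟩) (by
  intro x y
  apply Subtype.ext
  ext i j; fin_cases i <;> fin_cases j <;> simp [sq_add] <;> ring)

theorem O12_val (y : F) : (O12 y).1 = !![0, y, 0; y ^ 2, 0, 0; 0, 0, 0] := rfl
theorem O13_val (y : F) : (O13 y).1 = !![0, 0, y; 0, 0, 0; y ^ 2, 0, 0] := rfl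
theorem O23_val (y : F) : (O23 y).1 = !![0, 0, 0; 0, 0, y; 0, y ^ 2, 0] := rfl
theorem T1_val (s : F) : (T1 s).1 = !![s + s ^ 2, 0, 0; 0, 0, 0; 0, 0, 0] := rfl
theorem T2_val (s : F) : (T2 s).1 = !![0, 0, 0; 0, s + s ^ 2, 0; 0, 0, 0] := rfl
theorem T3_val (s : F) : (T3 s).1 = !![0, 0, 0; 0, 0, 0; 0, 0, s + s ^ 2] := rfl

def u13 : G3 F := ⟨!![1, 0, 1; 0, 1, 0; 0, 0, 1], by simp [Matrix.det_fin_three]⟩
def u23 : G3 F := ⟨!![1, 0, 0; 0, 1, 1; 0, 0, 1], by simp [Matrix.det_fin_three]⟩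
def u12 : G3 F := ⟨!![1, 1, 0; 0, 1, 0; 0, 0, 1], by simp [Matrix.det_fin_three]⟩
def u21 : G3 F := ⟨!![1, 0, 0; 1, 1, 0; 0, 0, 1], by simp [Matrix.det_fin_three]⟩

macro "hm" : tactic => `(tactic| (
  apply Subtype.ext
  ext i j
  simp only [ac_val, hact_apply, AddSubgroup.coe_add, Matrix.add_apply, O12_val, O13_val, O23_val, T1_val, T2_val, T3_val]
  fin_cases i <;> fin_cases j <;> simp [u13, u23, u12, u21, tq, sq_sq, sq_add, ← pow_mul, four'] <;> try ring))

theorem a13_T3 (s : F) : ac u13 (T3 s) = T3 s + O13 (s + s ^ 2) + T1 s := by hm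
theorem a13_O13 (y : F) : ac u13 (O13 y) = O13 y + T1 y := by hm
theorem a13_O23 (y : F) : ac u13 (O23 y) = O23 y + O12 (y ^ 2) := by hm
theorem a13_O12 (y : F) : ac u13 (O12 y) = O12 y := by hm
theorem a13_T1 (y : F) : ac u13 (T1 y) = T1 y := by hm
theorem a13_T2 (y : F) : ac u13 (T2 y) = T2 y := by hm

theorem a23_T3 (s : F) : ac u23 (T3 s) = T3 s + O23 (s + s ^ 2) + T2 s := by hm
theorem a23_O23 (y : F) : ac u23 (O23 y) = O23 y + T2 y := by hm
theorem a23_O13 (y : F) : ac u23 (O13 y) = O13 y + O12 y := by hm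
theorem a23_O12 (y : F) : ac u23 (O12 y) = O12 y := by hm
theorem a23_T1 (y : F) : ac u23 (T1 y) = T1 y := by hm
theorem a23_T2 (y : F) : ac u23 (T2 y) = T2 y := by hm

theorem a12_T1 (s : F) : ac u12 (T1 s) = T1 s := by hm
theorem a12_T3 (s : F) : ac u12 (T3 s) = T3 s := by hm
theorem a12_T2 (s : F) : ac u12 (T2 s) = T2 s + O12 (s + s ^ 2) + T1 s := by hm
theorem a21_T2 (s : F) : ac u21 (T2 s) = T2 s := by hm
theorem a21_T3 (s : F) : ac u21 (T3 s) = T3 s := by hm
theorem a21_T1 (s : F) : ac u21 (T1 s) = T1 s + O12 (s + s ^ 2) + T2 s := by hm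

end

end Cfsg.Agent.H616.L34
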