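import Cfsg.Agent.H616.L34.Quad

/-!
# S5917, row M9 (helper616): every `SL₃(4)`-invariant bilinear form on the exterior square of the module of hermitian
matrices vanishes
-/

set_option autoImplicit false
set_option linter.unusedSectionVars false

namespace Cfsg.Agent.H616.L34

open Matrix Cfsg.Agent.H691.L34 Cfsg.Agent.H204.L34

variable {F : Type} [Field F] [Four F]

theorem zz (a : ZMod 2) : a + a = 0 := CharTwo.add_self_eq_zero a

/-- averaging over the elements of order three -/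
theorem avg {v : F} (hv : v ^ 2 + v + 1 = 0) (h : F →+ ZMod 2) (hh : ∀ y, h (v * y) = h y) (y : F) : h y = 0 := by
  have e : v * (v * y) + v * y + y = 0 := by linear_combination y * hv
  have e1 := congrArg h e
  rw [map_add, map_add, hh, hh, map_zero, zz, zero_add] at e1
  exact e1

/-- the torus element -/
def tor (w : F) (hw : w ^ 2 + w + 1 = 0) : G3 F := ⟨!![w, 0, 0; 0, w ^ 2, 0; 0, 0, 1], by
  rw [Matrix.det_fin_three]
  simp
  linear_combination (w - 1) * hw⟩

section tor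

variable (w : F) (hw : w ^ 2 + w + 1 = 0)
include hw

theorem w3 : w ^ 3 = 1 := by linear_combination (w - 1) * hw

theorem tor_T1 (s : F) : ac (tor w hw) (T1 s) = T1 s := by
  have h3 := w3 w hw
  apply Subtype.ext
  ext i j
  simp only [ac_val, hact_apply, T1_val]
  fin_cases i <;> fin_cases j <;> simp [tor]
  linear_combination (s + s ^ 2) * h3

theorem tor_T2 (s : F) : ac (tor w hw) (T2 s) = T2 s := by
  have h3 := w3 w hw
  apply Subtype.ext
  ext i j
  simp only [ac_val, hact_apply, T2_val]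
  fin_cases i <;> fin_cases j <;> simp [tor]
  linear_combination (s + s ^ 2) * (w ^ 3 + 1) * h3

theorem tor_T3 (s : F) : ac (tor w hw) (T3 s) = T3 s := by
  apply Subtype.ext
  ext i j
  simp only [ac_val, hact_apply, T3_val]
  fin_cases i <;> fin_cases j <;> simp [tor]

theorem tor_O12 (y : F) : ac (tor w hw) (O12 y) = O12 (w ^ 2 * y) := by
  have h3 := w3 w hw
  apply Subtype.ext
  ext i j
  simp only [ac_val, hact_apply, O12_val]
  fin_cases i <;> fin_cases j <;> simp [tor]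
  · linear_combination (y * w ^ 2) * h3
  · ring

theorem tor_O13 (y : F) : ac (tor w hw) (O13 y) = O13 (w * y) := by
  apply Subtype.ext
  ext i j
  simp only [ac_val, hact_apply, O13_val]
  fin_cases i <;> fin_cases j <;> simp [tor]
  ring

theorem tor_O23 (y : F) : ac (tor w hw) (O23 y) = O23 (w ^ 2 * y) := by
  apply Subtype.ext
  ext i j
  simp only [ac_val, hact_apply, O23_val]
  fin_cases i <;> fin_cases j <;> simp [tor]
  ring

end tor

/-- every hermitian matrix -/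
theorem decomp (w : F) (hw : w ^ 2 + w + 1 = 0) (X : HS F) : ∃ a b c x y z : F,
    X = T1 a + T2 b + T3 c + O12 x + O13 y + O23 z := by
  have h := two' (F := F)
  have hX : ∀ i j, (X.1 j i) ^ 2 = X.1 i j := fun i j => HF_apply X.2 i j
  have hw4 : w + w ^ 2 = 1 := by linear_combination hw - h
  have hd : ∀ a : F, a ^ 2 = a → a * w + (a * w) ^ 2 = a := fun a ha => by
    linear_combination (w ^ 2) * ha + a * hw4
  refine ⟨X.1 0 0 * w, X.1 1 1 * w, X.1 2 2 * w, X.1 0 1, X.1 0 2, X.1 1 2, ?_⟩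
  apply Subtype.ext
  ext i j
  simp only [AddSubgroup.coe_add, Matrix.add_apply, O12_val, O13_val, O23_val, T1_val, T2_val, T3_val]
  fin_cases i <;> fin_cases j <;> simp [hd _ (hX 0 0), hd _ (hX 1 1), hd _ (hX 2 2), hX 1 0, hX 2 0, hX 2 1]

/-- two additive maps which agree on the basic matrices -/
theorem eq_zero_of {A : Type} [AddCommGroup A] (w : F) (hw : w ^ 2 + w + 1 = 0) (k : HS F →+ A) (h1 : ∀ s, k (T1 s) = 0)
    (h2 : ∀ s, k (T2 s) = 0) (h3 : ∀ s, k (T3 s) = 0) (h4 : ∀ s, k (O12 s) = 0) (h5 : ∀ s, k (O13 s) = 0)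
    (h6 : ∀ s, k (O23 s) = 0) (X : HS F) : k X = 0 := by
  obtain ⟨a, b, c, x, y, z, rfl⟩ := decomp w hw X
  simp only [map_add, h1, h2, h3, h4, h5, h6, add_zero]

/-- the values `T i s` are `0` or `T i w` -/
theorem s_cases (w : F) (hw : w ^ 2 + w + 1 = 0) (s : F) : s + s ^ 2 = 0 ∨ s + s ^ 2 = w + w ^ 2 := by
  have h := two' (F := F)
  have hw4 : w + w ^ 2 = 1 := by linear_combination hw - h
  have e : (s + s ^ 2) * (s + s ^ 2 - 1) = 0 := by
    have h1 := tq s
    linear_combination h1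
  rcases mul_eq_zero.1 e with h1 | h1
  · exact Or.inl h1
  · right; rw [hw4]; linear_combination h1

theorem T1_cases (w : F) (hw : w ^ 2 + w + 1 = 0) (s : F) : T1 s = 0 ∨ T1 s = T1 w := by
  rcases s_cases w hw s with h | h
  · left; apply Subtype.ext; rw [T1_val, h]; ext i j; fin_cases i <;> fin_cases j <;> rfl
  · right; apply Subtype.ext; rw [T1_val, T1_val, h]

theorem T2_cases (w : F) (hw : w ^ 2 + w + 1 = 0) (s : F) : T2 s = 0 ∨ T2 s = T2 w := by
  rcases s_cases w hw s with h | h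
  · left; apply Subtype.ext; rw [T2_val, h]; ext i j; fin_cases i <;> fin_cases j <;> rfl
  · right; apply Subtype.ext; rw [T2_val, T2_val, h]

theorem T3_cases (w : F) (hw : w ^ 2 + w + 1 = 0) (s : F) : T3 s = 0 ∨ T3 s = T3 w := by
  rcases s_cases w hw s with h | h
  · left; apply Subtype.ext; rw [T3_val, h]; ext i j; fin_cases i <;> fin_cases j <;> rfl
  · right; apply Subtype.ext; rw [T3_val, T3_val, h]

/-! ### the fourlinear form -/

/-- an invariant form on the exterior square -/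
structure Qf (f : HS F →+ HS F →+ HS F →+ HS F →+ ZMod 2) : Prop where
  inv : ∀ (g : G3 F) x y z w, f (ac g x) (ac g y) (ac g z) (ac g w) = f x y z w
  a12 : ∀ x z w, f x x z w = 0
  a34 : ∀ x y z, f x y z z = 0

theorem Qf.s34 {f : HS F →+ HS F →+ HS F →+ HS F →+ ZMod 2} (hf : Qf f) (x y z t : HS F) : f x y z t = f x y t z := by
  have h := hf.a34 x y (z + t)
  simp only [map_add, AddMonoidHom.add_apply, hf.a34, zero_add, add_zero] at h
  have h2 := zz (f x y t z)
  linear_combination h - h2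

section

variable (w : F) (hw : w ^ 2 + w + 1 = 0) {f : HS F →+ HS F →+ HS F →+ HS F →+ ZMod 2} (hf : Qf f)
include hw hf

theorem w2 : (w ^ 2) ^ 2 + w ^ 2 + 1 = 0 := by
  have h := two' (F := F)
  linear_combination (w ^ 2 - w + 1) * hw

/-- one off-diagonal matrix -/
theorem k1 (i : HS F) (hi : ac (tor w hw) i = i) (s : F) : f (T1 w) (T2 w) (O12 s) i = 0 ∧ f (T1 w) (T2 w) (O13 s) i = 0 ∧
    f (T1 w) (T2 w) (O23 s) i = 0 := by
  refine ⟨?_, ?_, ?_⟩
  · refine avg (w2 w hw hf) (AddMonoidHom.mk' (fun s => f (T1 w) (T2 w) (O12 s) i) (by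
      intro a b; simp only [map_add, AddMonoidHom.add_apply])) (fun y => ?_) s
    show f (T1 w) (T2 w) (O12 (w ^ 2 * y)) i = f (T1 w) (T2 w) (O12 y) i
    have h := hf.inv (tor w hw) (T1 w) (T2 w) (O12 y) i
    rw [tor_T1, tor_T2, tor_O12, hi] at h
    exact h
  · refine avg hw (AddMonoidHom.mk' (fun s => f (T1 w) (T2 w) (O13 s) i) (by
      intro a b; simp only [map_add, AddMonoidHom.add_apply])) (fun y => ?_) s
    show f (T1 w) (T2 w) (O13 (w * y)) i = f (T1 w) (T2 w) (O13 y) i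
    have h := hf.inv (tor w hw) (T1 w) (T2 w) (O13 y) i
    rw [tor_T1, tor_T2, tor_O13, hi] at h
    exact h
  · refine avg (w2 w hw hf) (AddMonoidHom.mk' (fun s => f (T1 w) (T2 w) (O23 s) i) (by
      intro a b; simp only [map_add, AddMonoidHom.add_apply])) (fun y => ?_) s
    show f (T1 w) (T2 w) (O23 (w ^ 2 * y)) i = f (T1 w) (T2 w) (O23 y) i
    have h := hf.inv (tor w hw) (T1 w) (T2 w) (O23 y) i
    rw [tor_T1, tor_T2, tor_O23, hi] at h
    exact h

theorem k2 (s : F) : f (T1 w) (O12 s) (T2 w) (T3 w) = 0 := by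
  refine avg (w2 w hw hf) (AddMonoidHom.mk' (fun s => f (T1 w) (O12 s) (T2 w) (T3 w)) (by
      intro a b; simp only [map_add, AddMonoidHom.add_apply])) (fun y => ?_) s
  show f (T1 w) (O12 (w ^ 2 * y)) (T2 w) (T3 w) = f (T1 w) (O12 y) (T2 w) (T3 w)
  have h := hf.inv (tor w hw) (T1 w) (O12 y) (T2 w) (T3 w)
  rw [tor_T1, tor_T2, tor_T3, tor_O12] at h
  exact h

theorem k3 (s : F) : f (O12 s) (T2 w) (T1 w) (T3 w) = 0 := by
  refine avg (w2 w hw hf) (AddMonoidHom.mk' (fun s => f (O12 s) (T2 w) (T1 w) (T3 w)) (by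
      intro a b; simp only [map_add, AddMonoidHom.add_apply])) (fun y => ?_) s
  show f (O12 (w ^ 2 * y)) (T2 w) (T1 w) (T3 w) = f (O12 y) (T2 w) (T1 w) (T3 w)
  have h := hf.inv (tor w hw) (O12 y) (T2 w) (T1 w) (T3 w)
  rw [tor_T1, tor_T2, tor_T3, tor_O12] at h
  exact h

theorem c12 : f (T1 w) (T2 w) (T1 w) (T2 w) = 0 := by
  have h := hf.inv u13 (T1 w) (T2 w) (T2 w) (T3 w)
  rw [a13_T1, a13_T2, a13_T3] at h
  have e : ∀ s, f (T1 w) (T2 w) (T2 w) (O13 s) = 0 := fun s => by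
    rw [hf.s34, (k1 w hw hf _ (tor_T2 w hw w) _).2.1]
  simp only [map_add, e] at h
  rw [hf.s34 _ _ (T2 w) (T1 w)] at h
  linear_combination h

theorem c13 : f (T1 w) (T2 w) (T1 w) (T3 w) = 0 := by
  have hu : (u12 : G3 F) * u12 = 1 := by
    apply Subtype.ext
    show (u12 : G3 F).1 * (u12 : G3 F).1 = 1
    have h := two' (F := F)
    ext i j
    fin_cases i <;> fin_cases j <;> simp [u12, Matrix.mul_apply, Fin.sum_univ_three]
    linear_combination h
  have h := hf.inv u12 (T1 w) (ac u12 (T2 w)) (T2 w) (T3 w)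
  rw [ac_mul, hu, ac_one, a12_T1, a12_T2, a12_T3] at h
  simp only [map_add, AddMonoidHom.add_apply, (k1 w hw hf _ (tor_T3 w hw w) _).1, k2 w hw hf, hf.a12] at h
  linear_combination h

theorem c23 : f (T1 w) (T2 w) (T2 w) (T3 w) = 0 := by
  have hu : (u21 : G3 F) * u21 = 1 := by
    apply Subtype.ext
    show (u21 : G3 F).1 * (u21 : G3 F).1 = 1
    have h := two' (F := F)
    ext i j
    fin_cases i <;> fin_cases j <;> simp [u21, Matrix.mul_apply, Fin.sum_univ_three]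
    linear_combination h
  have h := hf.inv u21 (ac u21 (T1 w)) (T2 w) (T1 w) (T3 w)
  rw [ac_mul, hu, ac_one, a21_T1, a21_T2, a21_T3] at h
  simp only [map_add, AddMonoidHom.add_apply, (k1 w hw hf _ (tor_T3 w hw w) _).1, k3 w hw hf, hf.a12] at h
  linear_combination h

/-- the diagonal part -/
theorem k4 (s t : F) : f (T1 w) (T2 w) (T1 s) (T2 t) = 0 ∧ f (T1 w) (T2 w) (T1 s) (T3 t) = 0 ∧
    f (T1 w) (T2 w) (T2 s) (T3 t) = 0 := by
  refine ⟨?_, ?_, ?_⟩
  · rcases T1_cases w hw s with h | h <;> rcases T2_cases w hw t with h' | h' <;> rw [h, h'] <;>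
      simp [c12 w hw hf]
  · rcases T1_cases w hw s with h | h <;> rcases T3_cases w hw t with h' | h' <;> rw [h, h'] <;>
      simp [c13 w hw hf]
  · rcases T2_cases w hw s with h | h <;> rcases T3_cases w hw t with h' | h' <;> rw [h, h'] <;>
      simp [c23 w hw hf]

theorem k5 (s t : F) : f (T1 w) (T2 w) (T1 s) (T1 t) = 0 ∧ f (T1 w) (T2 w) (T2 s) (T2 t) = 0 ∧
    f (T1 w) (T2 w) (T3 s) (T3 t) = 0 := by
  refine ⟨?_, ?_, ?_⟩
  · rcases T1_cases w hw s with h | h <;> rcases T1_cases w hw t with h' | h' <;> rw [h, h'] <;>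
      simp [hf.a34]
  · rcases T2_cases w hw s with h | h <;> rcases T2_cases w hw t with h' | h' <;> rw [h, h'] <;>
      simp [hf.a34]
  · rcases T3_cases w hw s with h | h <;> rcases T3_cases w hw t with h' | h' <;> rw [h, h'] <;>
      simp [hf.a34]

/-- one off-diagonal matrix, all cases -/
theorem k6 (s t : F) : (f (T1 w) (T2 w) (O12 s) (T1 t) = 0 ∧ f (T1 w) (T2 w) (O12 s) (T2 t) = 0 ∧
    f (T1 w) (T2 w) (O12 s) (T3 t) = 0) ∧ (f (T1 w) (T2 w) (O13 s) (T1 t) = 0 ∧ f (T1 w) (T2 w) (O13 s) (T2 t) = 0 ∧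
    f (T1 w) (T2 w) (O13 s) (T3 t) = 0) ∧ (f (T1 w) (T2 w) (O23 s) (T1 t) = 0 ∧ f (T1 w) (T2 w) (O23 s) (T2 t) = 0 ∧
    f (T1 w) (T2 w) (O23 s) (T3 t) = 0) := by
  have h1 := k1 w hw hf _ (tor_T1 w hw t) s
  have h2 := k1 w hw hf _ (tor_T2 w hw t) s
  have h3 := k1 w hw hf _ (tor_T3 w hw t) s
  exact ⟨⟨h1.1, h2.1, h3.1⟩, ⟨h1.2.1, h2.2.1, h3.2.1⟩, ⟨h1.2.2, h2.2.2, h3.2.2⟩⟩

/-- scaling by the torus -/
theorem sc {p q : F → HS F} {a b : F} (hp : ∀ y, ac (tor w hw) (p y) = p (a * y)) (hq : ∀ y, ac (tor w hw) (q y) = q (b * y))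
    (x y : F) : f (T1 w) (T2 w) (p (a * x)) (q (b * y)) = f (T1 w) (T2 w) (p x) (q y) := by
  have h := hf.inv (tor w hw) (T1 w) (T2 w) (p x) (q y)
  rw [tor_T1, tor_T2, hp, hq] at h
  exact h

theorem all_of_one {p q : F →+ HS F} {a b : F} (hp : ∀ y, ac (tor w hw) (p y) = p (a * y))
    (hq : ∀ y, ac (tor w hw) (q y) = q (b * y)) (hb : b ^ 2 + b + 1 = 0) (ha : a ^ 3 = 1)
    (h1 : ∀ x, f (T1 w) (T2 w) (p x) (q 1) = 0) (x y : F) : f (T1 w) (T2 w) (p x) (q y) = 0 := by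
  have h2 := two' (F := F)
  have hbb : ∀ x, f (T1 w) (T2 w) (p x) (q b) = 0 := fun x => by
    have h := sc w hw hf (p := p) (q := q) hp hq (a ^ 2 * x) 1
    rw [mul_one, h1] at h
    have e : a * (a ^ 2 * x) = x := by linear_combination x * ha
    rwa [e] at h
  have hb2 : ∀ x, f (T1 w) (T2 w) (p x) (q (b ^ 2)) = 0 := fun x => by
    have h := sc w hw hf (p := p) (q := q) hp hq (a ^ 2 * x) b
    rw [hbb] at h
    have e : a * (a ^ 2 * x) = x := by linear_combination x * ha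
    rw [e] at h
    rw [pow_two]
    exact h
  have hc : y = 0 ∨ y = 1 ∨ y = b ∨ y = b ^ 2 := by
    have e : y * ((y - 1) * ((y - b) * (y - b ^ 2))) = 0 := by
      have h3 : b ^ 3 = 1 := by linear_combination (b - 1) * hb
      have h4 := four' y
      linear_combination h4 - (y ^ 3 - y ^ 2) * hb + (y ^ 2 - y) * h3
    rcases mul_eq_zero.1 e with h | h
    · exact Or.inl h
    rcases mul_eq_zero.1 h with h | h
    · exact Or.inr (Or.inl (by linear_combination h))
    rcases mul_eq_zero.1 h with h | h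
    · exact Or.inr (Or.inr (Or.inl (by linear_combination h)))
    · exact Or.inr (Or.inr (Or.inr (by linear_combination h)))
  rcases hc with h | h | h | h
  · rw [h, map_zero, map_zero]
  · rw [h]; exact h1 x
  · rw [h]; exact hbb x
  · rw [h]; exact hb2 x

theorem o1313 (x y : F) : f (T1 w) (T2 w) (O13 x) (O13 y) = 0 := by
  refine all_of_one w hw hf (p := O13) (q := O13) (tor_O13 w hw) (tor_O13 w hw) hw (w3 w hw) (fun x => ?_) x y
  have h := hf.inv u13 (T1 w) (T2 w) (O13 x) (T3 w)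
  have hw4 : w + w ^ 2 = 1 := by have h := two' (F := F); linear_combination hw - h
  rw [a13_T1, a13_T2, a13_T3, a13_O13, hw4] at h
  simp only [map_add, AddMonoidHom.add_apply, (k6 w hw hf _ _).2.1.1, (k6 w hw hf _ _).2.1.2.2, (k4 w hw hf _ _).2.1,
    (k5 w hw hf _ _).1, hf.s34 _ _ (T1 _) (O13 _), add_zero, zero_add] at h
  exact h

theorem o2323 (x y : F) : f (T1 w) (T2 w) (O23 x) (O23 y) = 0 := by
  refine all_of_one w hw hf (p := O23) (q := O23) (tor_O23 w hw) (tor_O23 w hw) (w2 w hw hf)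
    (by have := w3 w hw; linear_combination (w ^ 3 + 1) * this) (fun x => ?_) x y
  have h := hf.inv u23 (T1 w) (T2 w) (O23 x) (T3 w)
  have hw4 : w + w ^ 2 = 1 := by have h := two' (F := F); linear_combination hw - h
  rw [a23_T1, a23_T2, a23_T3, a23_O23, hw4] at h
  simp only [map_add, AddMonoidHom.add_apply, (k6 w hw hf _ _).2.2.2.1, (k6 w hw hf _ _).2.2.2.2, (k4 w hw hf _ _).2.2,
    (k5 w hw hf _ _).2.1, hf.s34 _ _ (T2 _) (O23 _), add_zero, zero_add] at h
  exact h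

theorem o1312 (x y : F) : f (T1 w) (T2 w) (O13 x) (O12 y) = 0 := by
  have h := hf.inv u13 (T1 w) (T2 w) (O13 x) (O23 (y ^ 2))
  rw [a13_T1, a13_T2, a13_O23, a13_O13, sq_sq] at h
  simp only [map_add, AddMonoidHom.add_apply, hf.s34 _ _ (T1 _) (O23 _), hf.s34 _ _ (T1 _) (O12 _),
    (k6 w hw hf _ _).2.2.1, (k6 w hw hf _ _).1.1] at h
  linear_combination h

theorem o2312 (x y : F) : f (T1 w) (T2 w) (O23 x) (O12 y) = 0 := by
  have h := hf.inv u23 (T1 w) (T2 w) (O23 x) (O13 y)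
  rw [a23_T1, a23_T2, a23_O23, a23_O13] at h
  simp only [map_add, AddMonoidHom.add_apply, hf.s34 _ _ (T2 _) (O13 _), hf.s34 _ _ (T2 _) (O12 _),
    (k6 w hw hf _ _).2.1.2.1, (k6 w hw hf _ _).1.2.1] at h
  linear_combination h

theorem o1212 (x y : F) : f (T1 w) (T2 w) (O12 x) (O12 y) = 0 := by
  have h := hf.inv u13 (T1 w) (T2 w) (O23 (x ^ 2)) (O12 y)
  rw [a13_T1, a13_T2, a13_O23, a13_O12, sq_sq] at h
  simp only [map_add, AddMonoidHom.add_apply] at h
  linear_combination h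

theorem o2313 (x y : F) : f (T1 w) (T2 w) (O23 x) (O13 y) = 0 := by
  refine all_of_one w hw hf (p := O23) (q := O13) (tor_O23 w hw) (tor_O13 w hw) hw
    (by have := w3 w hw; linear_combination (w ^ 3 + 1) * this) (fun x => ?_) x y
  have h := hf.inv u13 (T1 w) (T2 w) (O23 x) (T3 w)
  have hw4 : w + w ^ 2 = 1 := by have h := two' (F := F); linear_combination hw - h
  rw [a13_T1, a13_T2, a13_T3, a13_O23, hw4] at h
  have e : ∀ x y, f (T1 w) (T2 w) (O12 x) (O13 y) = 0 := fun x y => by rw [hf.s34]; exact o1312 w hw hf y x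
  simp only [map_add, AddMonoidHom.add_apply, (k6 w hw hf _ _).2.2.1, (k6 w hw hf _ _).2.2.2.2, (k6 w hw hf _ _).1.1,
    (k6 w hw hf _ _).1.2.2, e, add_zero, zero_add] at h
  exact h

/-- the form vanishes at the first pair -/
theorem first (z t : HS F) : f (T1 w) (T2 w) z t = 0 := by
  have e2 : ∀ (i : HS F), (∀ s, f (T1 w) (T2 w) (T1 s) i = 0) → (∀ s, f (T1 w) (T2 w) (T2 s) i = 0) →
      (∀ s, f (T1 w) (T2 w) (T3 s) i = 0) → (∀ s, f (T1 w) (T2 w) (O12 s) i = 0) →
      (∀ s, f (T1 w) (T2 w) (O13 s) i = 0) → (∀ s, f (T1 w) (T2 w) (O23 s) i = 0) → f (T1 w) (T2 w) z i = 0 := by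
    intro i g1 g2 g3 g4 g5 g6
    exact eq_zero_of w hw (AddMonoidHom.mk' (fun z => f (T1 w) (T2 w) z i) (by
      intro a b; simp only [map_add, AddMonoidHom.add_apply])) g1 g2 g3 g4 g5 g6 z
  have sw : ∀ x y, f (T1 w) (T2 w) x y = 0 → f (T1 w) (T2 w) y x = 0 := fun x y h => by rw [hf.s34]; exact h
  refine eq_zero_of w hw (f (T1 w) (T2 w) z) ?_ ?_ ?_ ?_ ?_ ?_ t <;> intro t
  · exact e2 _ (fun s => (k5 w hw hf s t).1) (fun s => sw _ _ (k4 w hw hf t s).1) (fun s => sw _ _ (k4 w hw hf t s).2.1)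
      (fun s => (k6 w hw hf s t).1.1) (fun s => (k6 w hw hf s t).2.1.1) (fun s => (k6 w hw hf s t).2.2.1)
  · exact e2 _ (fun s => (k4 w hw hf s t).1) (fun s => (k5 w hw hf s t).2.1) (fun s => sw _ _ (k4 w hw hf t s).2.2)
      (fun s => (k6 w hw hf s t).1.2.1) (fun s => (k6 w hw hf s t).2.1.2.1) (fun s => (k6 w hw hf s t).2.2.2.1)
  · exact e2 _ (fun s => (k4 w hw hf s t).2.1) (fun s => (k4 w hw hf s t).2.2) (fun s => (k5 w hw hf s t).2.2)
      (fun s => (k6 w hw hf s t).1.2.2) (fun s => (k6 w hw hf s t).2.1.2.2) (fun s => (k6 w hw hf s t).2.2.2.2)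
  · exact e2 _ (fun s => sw _ _ (k6 w hw hf t s).1.1) (fun s => sw _ _ (k6 w hw hf t s).1.2.1)
      (fun s => sw _ _ (k6 w hw hf t s).1.2.2) (fun s => o1212 w hw hf s t) (fun s => o1312 w hw hf s t)
      (fun s => o2312 w hw hf s t)
  · exact e2 _ (fun s => sw _ _ (k6 w hw hf t s).2.1.1) (fun s => sw _ _ (k6 w hw hf t s).2.1.2.1)
      (fun s => sw _ _ (k6 w hw hf t s).2.1.2.2) (fun s => sw _ _ (o1312 w hw hf t s)) (fun s => o1313 w hw hf s t)
      (fun s => o2313 w hw hf s t)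
  · exact e2 _ (fun s => sw _ _ (k6 w hw hf t s).2.2.1) (fun s => sw _ _ (k6 w hw hf t s).2.2.2.1)
      (fun s => sw _ _ (k6 w hw hf t s).2.2.2.2) (fun s => sw _ _ (o2312 w hw hf t s))
      (fun s => sw _ _ (o2313 w hw hf t s)) (fun s => o2323 w hw hf s t)

end

end Cfsg.Agent.H616.L34
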