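import Cfsg.Agent.H616.L34.Quad2

/-!
# S5917, row M9 (helper616): every `SL₃(4)`-invariant bilinear form on the exterior square of the module of hermitian
matrices vanishes (conclusion)
-/

set_option autoImplicit false
set_option linter.unusedSectionVars false

namespace Cfsg.Agent.H616.L34

open Matrix Cfsg.Agent.H691.L34 Cfsg.Agent.H204.L34

variable {F : Type} [Field F] [Four F]

def p23 : G3 F := ⟨!![1, 0, 0; 0, 0, 1; 0, 1, 0], by simp [Matrix.det_fin_three, neg_eq]⟩
def p13 : G3 F := ⟨!![0, 0, 1; 0, 1, 0; 1, 0, 0], by simp [Matrix.det_fin_three, neg_eq]⟩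
def p12 : G3 F := ⟨!![0, 1, 0; 1, 0, 0; 0, 0, 1], by simp [Matrix.det_fin_three, neg_eq]⟩

macro "hp" : tactic => `(tactic| (
  apply Subtype.ext
  ext i j
  simp only [ac_val, hact_apply, AddSubgroup.coe_add, Matrix.add_apply, O12_val, O13_val, O23_val, T1_val, T2_val, T3_val]
  fin_cases i <;> fin_cases j <;> simp [p23, p13, p12, u12, u21, tq, sq_sq, sq_add, ← pow_mul, four'] <;> try ring))

theorem p23_T1 (s : F) : ac p23 (T1 s) = T1 s := by hp
theorem p23_T2 (s : F) : ac p23 (T2 s) = T3 s := by hp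
theorem p23_O12 (s : F) : ac p23 (O12 s) = O13 s := by hp
theorem p23_O23 (s : F) : ac p23 (O23 s) = O23 (s ^ 2) := by hp
theorem p12_T1 (s : F) : ac p12 (T1 s) = T2 s := by hp
theorem p12_T3 (s : F) : ac p12 (T3 s) = T3 s := by hp
theorem p12_O12 (s : F) : ac p12 (O12 s) = O12 (s ^ 2) := by hp
theorem p12_O13 (s : F) : ac p12 (O13 s) = O23 s := by hp
theorem p12_O23 (s : F) : ac p12 (O23 s) = O13 s := by hp
theorem p13_T1 (s : F) : ac p13 (T1 s) = T3 s := by hp
theorem p13_O13 (s : F) : ac p13 (O13 s) = O13 (s ^ 2) := by hp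
theorem p13_O12 (s : F) : ac p13 (O12 s) = O23 (s ^ 2) := by hp
theorem p13_O23 (s : F) : ac p13 (O23 s) = O12 (s ^ 2) := by hp
theorem a21_O12 (s : F) : ac u21 (O12 s) = O12 s + T2 s := by hp
theorem a12_O13 (s : F) : ac u12 (O13 s) = O13 s := by hp
theorem a21_O23 (s : F) : ac u21 (O23 s) = O23 s := by hp

/-- the form vanishes if the first pair is `x, y` -/
def Z (f : HS F →+ HS F →+ HS F →+ HS F →+ ZMod 2) (x y : HS F) : Prop := f x y = 0

section

variable (w : F) (hw : w ^ 2 + w + 1 = 0) {f : HS F →+ HS F →+ HS F →+ HS F →+ ZMod 2} (hf : Qf f)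
include hf

theorem Z.symm {x y : HS F} (h : Z f x y) : Z f y x := by
  have h1 : f (x + y) (x + y) = 0 := by
    ext z t; exact hf.a12 _ _ _
  have h2 : f x x = 0 := by ext z t; exact hf.a12 _ _ _
  have h3 : f y y = 0 := by ext z t; exact hf.a12 _ _ _
  simp only [map_add, AddMonoidHom.add_apply, h2, h3, zero_add, add_zero] at h1
  have h' : f x y = 0 := h
  rw [h'] at h1
  simpa [Z] using h1

theorem Z.ac {x y : HS F} (h : Z f x y) (g : G3 F) : Z f (ac g x) (ac g y) := by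
  show f (L34.ac g x) (L34.ac g y) = 0
  have h' : f x y = 0 := h
  ext z t
  have h1 := hf.inv g x y (L34.ac g⁻¹ z) (L34.ac g⁻¹ t)
  rw [ac_inv, ac_inv, h'] at h1
  exact h1

theorem Z.self (x : HS F) : Z f x x := by
  show f x x = 0
  ext z t; exact hf.a12 _ _ _

end

section

variable {f : HS F →+ HS F →+ HS F →+ HS F →+ ZMod 2}

theorem Z.r1 {x y z : HS F} (h : Z f x (y + z)) (h' : Z f x y) : Z f x z := by
  have h1 : f x (y + z) = 0 := h
  have h2 : f x y = 0 := h'
  rw [map_add, h2, zero_add] at h1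
  exact h1

theorem Z.r2 {x y z : HS F} (h : Z f x (y + z)) (h' : Z f x z) : Z f x y := by
  have h1 : f x (y + z) = 0 := h
  have h2 : f x z = 0 := h'
  rw [map_add, h2, add_zero] at h1
  exact h1

theorem Z.l1 {x y z : HS F} (h : Z f (y + z) x) (h' : Z f y x) : Z f z x := by
  have h1 : f (y + z) x = 0 := h
  have h2 : f y x = 0 := h'
  rw [map_add, AddMonoidHom.add_apply, h2, zero_add] at h1
  exact h1

theorem Z.l2 {x y z : HS F} (h : Z f (y + z) x) (h' : Z f z x) : Z f y x := by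
  have h1 : f (y + z) x = 0 := h
  have h2 : f z x = 0 := h'
  rw [map_add, AddMonoidHom.add_apply, h2, add_zero] at h1
  exact h1

theorem four_cases (b : F) (hb : b ^ 2 + b + 1 = 0) (y : F) : y = 0 ∨ y = 1 ∨ y = b ∨ y = b ^ 2 := by
  have e : y * ((y - 1) * ((y - b) * (y - b ^ 2))) = 0 := by
    have h3 : b ^ 3 = 1 := by linear_combination (b - 1) * hb
    have h4 := four' y
    linear_combination h4 - (y ^ 3 - y ^ 2) * hb + (y ^ 2 - y) * h3
  rcases mul_eq_zero.1 e with h | h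
  · exact Or.inl h
  rcases mul_eq_zero.1 h with h | h
  · exact Or.inr (Or.inl (by linear_combination h))
  rcases mul_eq_zero.1 h with h | h
  · exact Or.inr (Or.inr (Or.inl (by linear_combination h)))
  · exact Or.inr (Or.inr (Or.inr (by linear_combination h)))

end

section

variable (w : F) (hw : w ^ 2 + w + 1 = 0) {f : HS F →+ HS F →+ HS F →+ HS F →+ ZMod 2} (hf : Qf f)
include hw hf

theorem ext1 {x : HS F} (hx : ac (tor w hw) x = x) {p : F →+ HS F} {a : F} (ha : a ^ 2 + a + 1 = 0)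
    (hp : ∀ y, ac (tor w hw) (p y) = p (a * y)) (h : Z f x (p 1)) (y : F) : Z f x (p y) := by
  have h1 := Z.ac hf h (tor w hw)
  rw [hx, hp, mul_one] at h1
  have h2 := Z.ac hf h1 (tor w hw)
  rw [hx, hp] at h2
  rcases four_cases a ha y with e | e | e | e
  · rw [e, map_zero]; show f x 0 = 0; rw [map_zero]
  · rw [e]; exact h
  · rw [e]; exact h1
  · rw [e, pow_two]; exact h2

theorem ext2 {p q : F →+ HS F} {a b : F} (ha : a ^ 2 + a + 1 = 0) (hp : ∀ y, ac (tor w hw) (p y) = p (a * y))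
    (hb : b ^ 3 = 1) (hq : ∀ y, ac (tor w hw) (q y) = q (b * y)) (h : ∀ y, Z f (p 1) (q y)) (x y : F) :
    Z f (p x) (q y) := by
  have h1 : ∀ y, Z f (p a) (q y) := fun y => by
    have h1 := Z.ac hf (h (b ^ 2 * y)) (tor w hw)
    have e : b * (b ^ 2 * y) = y := by linear_combination y * hb
    rwa [hp, mul_one, hq, e] at h1
  have h2 : ∀ y, Z f (p (a ^ 2)) (q y) := fun y => by
    have h1 := Z.ac hf (h1 (b ^ 2 * y)) (tor w hw)
    have e : b * (b ^ 2 * y) = y := by linear_combination y * hb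
    rwa [hp, ← pow_two, hq, e] at h1
  rcases four_cases a ha x with e | e | e | e
  · rw [e, map_zero]; show f 0 _ = 0; rw [map_zero]; rfl
  · rw [e]; exact h y
  · rw [e]; exact h1 y
  · rw [e]; exact h2 y

theorem TT_of {x : HS F} (t : F →+ HS F) (ht : ∀ s, t s = 0 ∨ t s = t w) (h : Z f x (t w)) (s : F) : Z f x (t s) := by
  rcases ht s with e | e
  · rw [e]; show f x 0 = 0; rw [map_zero]
  · rw [e]; exact h

/-- **every invariant form on the exterior square is zero** -/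
theorem form_zero (x y z t : HS F) : f x y z t = 0 := by
  have hw' := w2 w hw hf
  have h3 := w3 w hw
  have h3' : (w ^ 2) ^ 3 = 1 := by linear_combination (w ^ 3 + 1) * h3
  have hw4 : w + w ^ 2 = 1 := by have h := two' (F := F); linear_combination hw - h
  have A1 : Z f (T1 w) (T2 w) := by
    show f (T1 w) (T2 w) = 0
    ext z t
    exact first w hw hf z t
  have A2 : Z f (T1 w) (T3 w) := by
    have h := Z.ac hf A1 p23
    rwa [p23_T1, p23_T2] at h
  have A3 : Z f (T2 w) (T3 w) := by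
    have h := Z.ac hf A2 p12
    rwa [p12_T1, p12_T3] at h
  have B12 : Z f (T1 w) (O12 1) := by
    have h := Z.ac hf A1 u12
    rw [a12_T1, a12_T2, hw4] at h
    exact (h.r2 (Z.self hf _)).r1 A1
  have B13 : Z f (T1 w) (O13 1) := by
    have h := Z.ac hf B12 p23
    rwa [p23_T1, p23_O12] at h
  have B23 : Z f (T1 w) (O23 1) := by
    have h := Z.ac hf A2 u23
    rw [a23_T1, a23_T3, hw4] at h
    exact (h.r2 A1).r1 A2
  have C12 : Z f (T2 w) (O12 1) := by
    have h := Z.ac hf B12 p12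
    rwa [p12_T1, p12_O12, one_pow] at h
  have C23 : Z f (T2 w) (O23 1) := by
    have h := Z.ac hf B13 p12
    rwa [p12_T1, p12_O13] at h
  have C13 : Z f (T2 w) (O13 1) := by
    have h := Z.ac hf B23 p12
    rwa [p12_T1, p12_O23] at h
  have D13 : Z f (T3 w) (O13 1) := by
    have h := Z.ac hf B13 p13
    rwa [p13_T1, p13_O13, one_pow] at h
  have D23 : Z f (T3 w) (O23 1) := by
    have h := Z.ac hf B12 p13
    rwa [p13_T1, p13_O12, one_pow] at h
  have D12 : Z f (T3 w) (O12 1) := by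
    have h := Z.ac hf B23 p13
    rwa [p13_T1, p13_O23, one_pow] at h
  have X1 := tor_T1 w hw w
  have X2 := tor_T2 w hw w
  have X3 := tor_T3 w hw w
  have P12 := tor_O12 w hw
  have P13 := tor_O13 w hw
  have P23 := tor_O23 w hw
  have b12 := ext1 w hw hf X1 hw' P12 B12
  have b13 := ext1 w hw hf X1 hw P13 B13
  have b23 := ext1 w hw hf X1 hw' P23 B23
  have c12 := ext1 w hw hf X2 hw' P12 C12
  have c13 := ext1 w hw hf X2 hw P13 C13
  have c23 := ext1 w hw hf X2 hw' P23 C23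
  have d12 := ext1 w hw hf X3 hw' P12 D12
  have d13 := ext1 w hw hf X3 hw P13 D13
  have d23 := ext1 w hw hf X3 hw' P23 D23
  have tt2 : ∀ {x : HS F}, Z f x (T2 w) → ∀ s, Z f x (T2 s) := fun h s => TT_of w hw hf T2 (T2_cases w hw) h s
  have e1212 : ∀ x y, Z f (O12 x) (O12 y) := ext2 w hw hf hw' P12 h3' P12 (fun y => by
    have h := Z.ac hf (b12 y) u21
    rw [a21_T1, a21_O12, hw4] at h
    have h1 : Z f (T1 w + O12 1 + T2 w) (T2 y) :=
      Z.symm hf (by
        have g1 : Z f (T2 y) (T1 w) := Z.symm hf (tt2 A1 y)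
        have g2 : Z f (T2 y) (O12 1) := Z.symm hf (tt2 (Z.symm hf C12) y)
        have g3 : Z f (T2 y) (T2 w) := Z.symm hf (tt2 (Z.self hf _) y)
        show f (T2 y) (T1 w + O12 1 + T2 w) = 0
        rw [map_add, map_add, g1, g2, g3, add_zero, add_zero])
    exact ((h.r2 h1).l2 (c12 y)).l1 (b12 y))
  have e1213 : ∀ x y, Z f (O12 x) (O13 y) := ext2 w hw hf hw' P12 h3 P13 (fun y => by
    have h := Z.ac hf (c13 y) u12
    rw [a12_T2, a12_O13, hw4] at h
    exact (h.l2 (b13 y)).l1 (c13 y))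
  have e1223 : ∀ x y, Z f (O12 x) (O23 y) := ext2 w hw hf hw' P12 h3' P23 (fun y => by
    have h := Z.ac hf (b23 y) u21
    rw [a21_T1, a21_O23, hw4] at h
    exact (h.l2 (c23 y)).l1 (b23 y))
  have e1323 : ∀ x y, Z f (O13 x) (O23 y) := fun x y => by
    have h := Z.ac hf (e1223 x (y ^ 2)) p23
    rwa [p23_O12, p23_O23, sq_sq] at h
  have e1313 : ∀ x y, Z f (O13 x) (O13 y) := fun x y => by
    have h := Z.ac hf (e1212 x y) p23
    rwa [p23_O12, p23_O12] at h
  have e2323 : ∀ x y, Z f (O23 x) (O23 y) := fun x y => by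
    have h := Z.ac hf (e1212 (x ^ 2) (y ^ 2)) p13
    rwa [p13_O12, p13_O12, sq_sq, sq_sq] at h
  have r : ∀ i : HS F, Z f i (T1 w) → Z f i (T2 w) → Z f i (T3 w) → (∀ s, Z f i (O12 s)) → (∀ s, Z f i (O13 s)) →
      (∀ s, Z f i (O23 s)) → ∀ y, Z f i y := fun i g1 g2 g3 g4 g5 g6 y =>
    eq_zero_of w hw (f i) (TT_of w hw hf T1 (T1_cases w hw) g1) (TT_of w hw hf T2 (T2_cases w hw) g2)
      (TT_of w hw hf T3 (T3_cases w hw) g3) g4 g5 g6 y
  have sy : ∀ {x y : HS F}, Z f x y → Z f y x := fun h => Z.symm hf h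
  have r1 := r (T1 w) (Z.self hf _) A1 A2 b12 b13 b23
  have r2 := r (T2 w) (sy A1) (Z.self hf _) A3 c12 c13 c23
  have r3 := r (T3 w) (sy A2) (sy A3) (Z.self hf _) d12 d13 d23
  have r4 := fun s => r (O12 s) (sy (b12 s)) (sy (c12 s)) (sy (d12 s)) (e1212 s) (e1213 s) (e1223 s)
  have r5 := fun s => r (O13 s) (sy (b13 s)) (sy (c13 s)) (sy (d13 s)) (fun t => sy (e1213 t s)) (e1313 s) (e1323 s)
  have r6 := fun s => r (O23 s) (sy (b23 s)) (sy (c23 s)) (sy (d23 s)) (fun t => sy (e1223 t s))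
    (fun t => sy (e1323 t s)) (e2323 s)
  have e : Z f x y := sy (r y (sy (r1 y)) (sy (r2 y)) (sy (r3 y)) (fun s => sy (r4 s y)) (fun s => sy (r5 s y))
    (fun s => sy (r6 s y)) x)
  have e' : f x y = 0 := e
  rw [e']; rfl

end

end Cfsg.Agent.H616.L34
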